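import Mathlib
import Cfsg.Agent.Lib.Glauberman.Canonical
import Cfsg.Agent.Lib.Char.BrauerPerm

/-!
# The Glauberman correspondence for a coprime cyclic action, with values of canonical extensions
-/

set_option autoImplicit false

namespace Cfsg.Agent.Lib.Glauberman.CyclicMain

open Module Finset
open Cfsg Cfsg.Agent.Lib.Char.Basic Cfsg.Agent.Lib.Char.Ortho Cfsg.Agent.Lib.Char.Complete
open Cfsg.Agent.Lib.Char.Conj
open Cfsg.Agent.Lib.Glauberman.Twist Cfsg.Agent.Lib.Glauberman.Coset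
open Cfsg.Agent.Lib.Glauberman.Fourier Cfsg.Agent.Lib.Glauberman.Step
open Cfsg.Agent.Lib.Glauberman.CyclicCore Cfsg.Agent.Lib.Glauberman.ConjAct
open Cfsg.Agent.Lib.Glauberman.Canonical
open scoped ComplexConjugate

universe u

theorem setup_pow_of_coprime {H : Type u} [Group H] {σ : MulAut H} {N : ℕ} {C : Subgroup H}
    (hS : Setup σ N C) {l : ℕ} (hl : l.Coprime N) : Setup (σ ^ l) N C := by
  refine ⟨hS.ne, by rw [← pow_mul, mul_comm, pow_mul, hS.pow, one_pow], hS.cop, fun g => ?_⟩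
  have hfp : ∀ (τ : MulAut H) (k : ℕ), τ g = g → (τ ^ k) g = g := by
    intro τ k h
    induction k with
    | zero => simp
    | succ k ih => rw [pow_succ, MulAut.mul_apply, h, ih]
  rw [hS.fix g]
  constructor
  · exact hfp σ _
  · intro h
    have hst : σ ^ l ∈ MulAction.stabilizer (MulAut H) g := h
    have h3 : σ = (σ ^ l) ^ (Nat.gcdA l N) * (σ ^ N) ^ (Nat.gcdB l N) := by
      rw [hS.pow, one_zpow, mul_one, ← zpow_natCast, ← zpow_mul]
      have h4 := Nat.gcd_eq_gcd_ab l N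
      rw [hl] at h4
      have h5 : (σ : MulAut H) ^ ((l : ℤ) * Nat.gcdA l N + N * Nat.gcdB l N) = σ := by
        rw [← h4]
        simp
      rw [zpow_add, zpow_mul σ (N : ℤ), zpow_natCast σ N, hS.pow, one_zpow, mul_one] at h5
      exact h5.symm
    have h6 : σ ∈ MulAction.stabilizer (MulAut H) g := by
      rw [h3, hS.pow, one_zpow, mul_one]
      exact Subgroup.zpow_mem _ hst _
    exact h6

section Data

variable {Γ : Type u} [Group Γ] [Fintype Γ] {G S C : Subgroup Γ} [Fintype G]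

theorem exists_generator (hcyc : IsCyclic S) : ∃ t : Γ, Subgroup.zpowers t = S := by
  obtain ⟨g, hg⟩ := hcyc.exists_generator
  refine ⟨g, ?_⟩
  ext x
  constructor
  · rintro ⟨i, rfl⟩
    exact S.zpow_mem g.2 i
  · intro hx
    obtain ⟨i, hi⟩ := hg ⟨x, hx⟩
    exact ⟨i, congrArg Subtype.val hi⟩

theorem pow_of_zpowers {t : Γ} {s : Γ} (hs : s ∈ Subgroup.zpowers t) : ∃ l : ℕ, t ^ l = s := by
  have := mem_powers_iff_mem_zpowers.mpr hs
  exact this

/-- A generator is a power of a fixed generator, with exponent prime to the order. -/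
theorem exists_coprime_pow {t s : Γ} (ht : Subgroup.zpowers t = S) (hs : Subgroup.zpowers s = S) :
    ∃ l : ℕ, l.Coprime (Nat.card S) ∧ t ^ l = s := by
  have hsmem : s ∈ Subgroup.zpowers t := by rw [ht, ← hs]; exact Subgroup.mem_zpowers s
  obtain ⟨l, hl⟩ := pow_of_zpowers hsmem
  have h1 : orderOf t = Nat.card S := by rw [← Nat.card_zpowers, ht]
  have h2 : orderOf s = Nat.card S := by rw [← Nat.card_zpowers, hs]
  refine ⟨l, ?_, hl⟩
  have h3 := orderOf_pow t (n := l)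
  rw [hl, h1, h2] at h3
  have hpos : 0 < Nat.card S := Nat.card_pos
  have hg : Nat.gcd (Nat.card S) l ∣ Nat.card S := Nat.gcd_dvd_left _ _
  have h4 := Nat.div_mul_cancel hg
  rw [← h3] at h4
  have h5 : Nat.gcd (Nat.card S) l = 1 := by
    have h6 : Nat.card S * Nat.gcd (Nat.card S) l = Nat.card S * 1 := by rw [h4, mul_one]
    exact Nat.eq_of_mul_eq_mul_left hpos h6
  exact Nat.Coprime.symm h5

/-- The restricted representation. -/
noncomputable abbrev resRep {n : ℕ} (G : Subgroup Γ) (ρh : Representation ℂ Γ (Fin n → ℂ)) :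
    Representation ℂ G (Fin n → ℂ) := ρh.comp G.subtype

theorem tmem {t : Γ} (ht : Subgroup.zpowers t = S) : t ∈ S := by
  rw [← ht]; exact Subgroup.mem_zpowers t

/-- The automorphism given by a generator. -/
abbrev gen (hnorm : ∀ s ∈ S, ∀ g ∈ G, s * g * s⁻¹ ∈ G) {t : Γ} (ht : Subgroup.zpowers t = S) : MulAut G :=
  conjHom G S hnorm ⟨t, tmem ht⟩

theorem isTwist_res (hnorm : ∀ s ∈ S, ∀ g ∈ G, s * g * s⁻¹ ∈ G) {t : Γ}
    (ht : Subgroup.zpowers t = S) {n : ℕ} (ρh : Representation ℂ Γ (Fin n → ℂ)) :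
    IsTwist (resRep G ρh) (gen hnorm ht) (ρh t) := by
  intro g
  show ρh t * ρh (g : Γ) = ρh (t * g * t⁻¹) * ρh t
  rw [← map_mul, ← map_mul]
  congr 1
  group

theorem pow_card_gen {t : Γ} (ht : Subgroup.zpowers t = S) : t ^ Nat.card S = 1 := by
  rw [← ht, Nat.card_zpowers]
  exact pow_orderOf_eq_one t

theorem rep_pow_card {t : Γ} (ht : Subgroup.zpowers t = S) {n : ℕ}
    (ρh : Representation ℂ Γ (Fin n → ℂ)) : (ρh t) ^ Nat.card S = 1 := by
  rw [← map_pow, pow_card_gen ht, map_one]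

theorem gen_pow_card (hnorm : ∀ s ∈ S, ∀ g ∈ G, s * g * s⁻¹ ∈ G) {t : Γ}
    (ht : Subgroup.zpowers t = S) : (gen hnorm ht) ^ Nat.card S = 1 := by
  rw [gen, ← map_pow]
  have : (⟨t, tmem ht⟩ : S) ^ Nat.card S = 1 := Subtype.ext (pow_card_gen ht)
  rw [this, map_one]

/-- The fixed points of the generator. -/
theorem setup_gen (hnorm : ∀ s ∈ S, ∀ g ∈ G, s * g * s⁻¹ ∈ G)
    (hcop : (Nat.card G).Coprime (Nat.card S)) (hC : C = G ⊓ Subgroup.centralizer (S : Set Γ))
    {t : Γ} (ht : Subgroup.zpowers t = S) :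
    Setup (gen hnorm ht) (Nat.card S) (C.subgroupOf G) := by
  refine ⟨Nat.card_pos.ne', gen_pow_card hnorm ht, hcop.symm, fun g => ?_⟩
  rw [Subgroup.mem_subgroupOf, hC]
  constructor
  · intro h
    have h1 : (g : Γ) ∈ Subgroup.centralizer (S : Set Γ) := (Subgroup.mem_inf.mp h).2
    have h2 := Subgroup.mem_centralizer_iff.mp h1 t (tmem ht)
    apply Subtype.ext
    show t * g * t⁻¹ = g
    rw [h2]
    simp
  · intro h
    refine Subgroup.mem_inf.mpr ⟨g.2, ?_⟩
    have h1 : t * g * t⁻¹ = g := congrArg Subtype.val h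
    have h2 : t ∈ Subgroup.centralizer ({(g : Γ)} : Set Γ) := by
      rw [Subgroup.mem_centralizer_iff]
      intro y hy
      rw [Set.mem_singleton_iff] at hy
      subst hy
      calc (g : Γ) * t = t * g * t⁻¹ * t := by rw [h1]
        _ = t * g := by group
    have h3 : S ≤ Subgroup.centralizer ({(g : Γ)} : Set Γ) := by
      rw [← ht, Subgroup.zpowers_le]
      exact h2
    rw [Subgroup.mem_centralizer_iff]
    intro s hs
    exact (Subgroup.mem_centralizer_iff.mp (h3 hs) g rfl).symm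

/-- The values of twisted traces. -/
theorem tf_res_pow {n : ℕ} (ρh : Representation ℂ Γ (Fin n → ℂ)) (t : Γ) (k : ℕ)
    (c : C.subgroupOf G) :
    tf (resRep G ρh) (C.subgroupOf G) (ρh t ^ k) c = ρh.character (((c : G) : Γ) * t ^ k) := by
  show LinearMap.trace ℂ _ (ρh ((c : G) : Γ) * ρh t ^ k) = LinearMap.trace ℂ _ (ρh (((c : G) : Γ) * t ^ k))
  rw [map_mul ρh, map_pow ρh]

/-- The Galois invariance. -/
theorem hgal_of_canon (hnorm : ∀ s ∈ S, ∀ g ∈ G, s * g * s⁻¹ ∈ G)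
    (hcop : (Nat.card G).Coprime (Nat.card S)) (htop : G ⊔ S = ⊤)
    (hC : C = G ⊓ Subgroup.centralizer (S : Set Γ))
    {t : Γ} (ht : Subgroup.zpowers t = S) {n : ℕ} (ρh : Representation ℂ Γ (Fin n → ℂ))
    (χ : IrrCharacter G)
    (hinv : ∀ s ∈ S, ∀ g g' : G, (g' : Γ) = s * g * s⁻¹ → (χ : G → ℂ) g' = (χ : G → ℂ) g)
    (hirr : IsIrrCharacter Γ ρh.character) (hext : ∀ g : G, ρh.character g = (χ : G → ℂ) g)
    (hdet : (detOrder ρh.character).Coprime (Nat.card S)) (k : ℕ) (hk : k.Coprime (Nat.card S))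
    (c : C) (hc : (c : Γ) ∈ G) :
    ρh.character (c * t ^ k) = ρh.character (c * t) := by
  have hn := normal_of_sup hnorm htop
  -- Chinese remainder
  obtain ⟨K, hK1, hK2⟩ := Nat.chineseRemainder hcop 1 k
  have hKS : K.Coprime (Nat.card S) := by
    have h1 : Nat.gcd K (Nat.card S) = Nat.gcd k (Nat.card S) := hK2.gcd_eq
    rw [Nat.Coprime, h1]
    exact hk
  have h1 := canon_pow hn hcop htop χ hinv ⟨ρh.character, hirr⟩ hext hdet hK1 hKS ((c : Γ) * t)
  have hcomm : Commute (c : Γ) t := by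
    have h2 : (c : Γ) ∈ Subgroup.centralizer (S : Set Γ) :=
      (Subgroup.mem_inf.mp (hC.le c.2)).2
    exact (Subgroup.mem_centralizer_iff.mp h2 t (tmem ht)).symm
  rw [hcomm.mul_pow] at h1
  have h3 : (c : Γ) ^ K = c := by
    have h4 : (⟨c, hc⟩ : G) ^ K = ⟨c, hc⟩ := by
      have h2 : (⟨c, hc⟩ : G) ^ K = (⟨c, hc⟩ : G) ^ 1 := (pow_eq_pow_iff_modEq).mpr
        (hK1.of_dvd (orderOf_dvd_natCard _))
      rwa [pow_one] at h2
    exact congrArg Subtype.val h4
  have h5 : t ^ K = t ^ k := by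
    apply (pow_eq_pow_iff_modEq).mpr
    refine hK2.of_dvd ?_
    rw [← ht, Nat.card_zpowers]
  rw [h3, h5] at h1
  exact h1

/-- The transfer isomorphism. -/
noncomputable abbrev eC (hCG : C ≤ G) : C ≃* C.subgroupOf G := (Subgroup.subgroupOfEquivOfLe hCG).symm

theorem eC_coe (hCG : C ≤ G) (c : C) : (((eC hCG c : C.subgroupOf G) : G) : Γ) = c := rfl

theorem eC_symm_coe (hCG : C ≤ G) (c : C.subgroupOf G) : ((eC hCG).symm c : Γ) = ((c : G) : Γ) := rfl

variable [Fintype C]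

/-- The value of a canonical extension on generators. -/
theorem canon_value (hnorm : ∀ s ∈ S, ∀ g ∈ G, s * g * s⁻¹ ∈ G)
    (hcop : (Nat.card G).Coprime (Nat.card S)) (htop : G ⊔ S = ⊤)
    (hC : C = G ⊓ Subgroup.centralizer (S : Set Γ)) (hCG : C ≤ G)
    {t : Γ} (ht : Subgroup.zpowers t = S) {n : ℕ} (ρh : Representation ℂ Γ (Fin n → ℂ))
    (χ : IrrCharacter G)
    (hinv : ∀ s ∈ S, ∀ g g' : G, (g' : Γ) = s * g * s⁻¹ → (χ : G → ℂ) g' = (χ : G → ℂ) g)
    (hirr : IsIrrCharacter Γ ρh.character) (hext : ∀ g : G, ρh.character g = (χ : G → ℂ) g)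
    (hdet : (detOrder ρh.character).Coprime (Nat.card S)) (hρ : (resRep G ρh).IsIrreducible) :
    ∃ (β : IrrCharacter C) (ε : ℤ), (ε = 1 ∨ ε = -1) ∧
      (∀ (c : C) (k : ℕ), k.Coprime (Nat.card S) → ρh.character (c * t ^ k) = (ε : ℂ) * (β : C → ℂ) c) ∧
      classInner (fun c : C => (χ : G → ℂ) ⟨c, hCG c.2⟩) (β : C → ℂ) ≠ 0 := by
  classical
  letI : Fintype (C.subgroupOf G) := Fintype.ofFinite _
  haveI : NeZero (Nat.card S) := ⟨Nat.card_pos.ne'⟩
  have hS := setup_gen (C := C) hnorm hcop hC ht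
  have hCfix : ∀ c : C.subgroupOf G, (gen hnorm ht) (c : G) = c := fun c => (hS.fix c).mp c.2
  have htw := isTwist_res hnorm ht ρh
  have hA := rep_pow_card ht ρh
  have hgal : ∀ k : ℕ, k.Coprime (Nat.card S) →
      tf (resRep G ρh) (C.subgroupOf G) (ρh t ^ k) = tf (resRep G ρh) (C.subgroupOf G) (ρh t) := by
    intro k hk
    funext c
    have h1 := tf_res_pow ρh t k c
    have h2 := tf_res_pow ρh t 1 c
    rw [pow_one, pow_one] at h2
    rw [h1, h2]
    exact hgal_of_canon hnorm hcop htop hC ht ρh χ hinv hirr hext hdet k hk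
      ((eC hCG).symm c) (c : G).2
  obtain ⟨β', ε, hε, hval⟩ := cyclic_core hρ hS hCfix htw hA hgal
  let β : IrrCharacter C := ⟨(β' : C.subgroupOf G → ℂ) ∘ eC hCG, isIrrCharacter_comp_mulEquiv _ β'.2⟩
  refine ⟨β, ε, hε, fun c k hk => ?_, ?_⟩
  · have h1 := tf_res_pow ρh t k (eC hCG c)
    rw [hgal k hk, hval] at h1
    exact h1.symm
  · have hcomm : ∀ c : C.subgroupOf G, ρh t * resRep G ρh c = resRep G ρh c * ρh t := fun c => by
      have := htw c
      rwa [hCfix c] at this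
    have hne : classInner (tf (resRep G ρh) (C.subgroupOf G) (ρh t ^ 1)) (β' : C.subgroupOf G → ℂ) ≠ 0 := by
      rw [pow_one, hval]
      have h2 : (fun c => (ε : ℂ) * (β' : C.subgroupOf G → ℂ) c) =
          (ε : ℂ) • (β' : C.subgroupOf G → ℂ) := rfl
      rw [h2, classInner_smul_left, classInner_self_of_isIrr β'.2, mul_one]
      rcases hε with h | h <;> rw [h] <;> simp
    have h3 := mult_ne_zero hA hcomm β' 1 hne
    have h4 := classInner_comp_mulEquiv (eC hCG) (tf (resRep G ρh) (C.subgroupOf G) 1)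
      (β' : C.subgroupOf G → ℂ)
    rw [← h4] at h3
    convert h3 using 2
    funext c
    show (χ : G → ℂ) _ = LinearMap.trace ℂ _ (resRep G ρh _ * 1)
    rw [mul_one, ← hext]
    rfl

omit [Fintype Γ] [Fintype G] [Fintype C] in
theorem isIrreducible_of_isIrr {X : Type u} [Group X] [Finite X] {n : ℕ}
    (ρ : Representation ℂ X (Fin n → ℂ)) (h : IsIrrCharacter X ρ.character) : ρ.IsIrreducible := by
  obtain ⟨m, ρ', hρ', hc⟩ := h
  obtain ⟨e⟩ := Cfsg.Agent.Lib.Char.RepEquiv.nonempty_equiv_of_character_eq ρ' ρ hc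
  exact isIrreducible_of_equiv e hρ'

/-- The restriction of a representation affording an extension of `χ` is irreducible. -/
theorem resRep_irr {n : ℕ} (ρh : Representation ℂ Γ (Fin n → ℂ)) (χ : IrrCharacter G)
    (hext : ∀ g : G, ρh.character g = (χ : G → ℂ) g) : (resRep G ρh).IsIrreducible := by
  apply isIrreducible_of_isIrr
  have h1 : (resRep G ρh).character = (χ : G → ℂ) := funext hext
  rw [h1]
  exact χ.2

/-- Canonical values for a given character of `Γ`. -/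
theorem canon_value' (hnorm : ∀ s ∈ S, ∀ g ∈ G, s * g * s⁻¹ ∈ G)
    (hcop : (Nat.card G).Coprime (Nat.card S)) (htop : G ⊔ S = ⊤)
    (hC : C = G ⊓ Subgroup.centralizer (S : Set Γ)) (hCG : C ≤ G)
    {t : Γ} (ht : Subgroup.zpowers t = S) (χ : IrrCharacter G)
    (hinv : ∀ s ∈ S, ∀ g g' : G, (g' : Γ) = s * g * s⁻¹ → (χ : G → ℂ) g' = (χ : G → ℂ) g)
    (χh : IrrCharacter Γ) (hext : ∀ g : G, (χh : Γ → ℂ) g = (χ : G → ℂ) g)
    (hdet : (detOrder (χh : Γ → ℂ)).Coprime (Nat.card S)) :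
    ∃ (β : IrrCharacter C) (ε : ℤ), (ε = 1 ∨ ε = -1) ∧
      (∀ (c : C) (k : ℕ), k.Coprime (Nat.card S) → (χh : Γ → ℂ) (c * t ^ k) = (ε : ℂ) * (β : C → ℂ) c) ∧
      classInner (fun c : C => (χ : G → ℂ) ⟨c, hCG c.2⟩) (β : C → ℂ) ≠ 0 := by
  obtain ⟨n, ρh, hρh, hχh⟩ := χh.2
  have hext' : ∀ g : G, ρh.character g = (χ : G → ℂ) g := fun g => by rw [hχh]; exact hext g
  have hdet' : (detOrder ρh.character).Coprime (Nat.card S) := by rw [hχh]; exact hdet
  have hirr : IsIrrCharacter Γ ρh.character := by rw [hχh]; exact χh.2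
  have := canon_value (C := C) hnorm hcop htop hC hCG ht ρh χ hinv hirr hext' hdet'
    (resRep_irr ρh χ hext')
  rw [hχh] at this
  exact this

/-- Orthogonality of the values of extensions of different characters. -/
theorem orth_values (hnorm : ∀ s ∈ S, ∀ g ∈ G, s * g * s⁻¹ ∈ G)
    (hcop : (Nat.card G).Coprime (Nat.card S))
    (hC : C = G ⊓ Subgroup.centralizer (S : Set Γ)) (hCG : C ≤ G)
    {t : Γ} (ht : Subgroup.zpowers t = S) {χ χ' : IrrCharacter G} (hne : χ ≠ χ')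
    (χh χh' : IrrCharacter Γ) (hext : ∀ g : G, (χh : Γ → ℂ) g = (χ : G → ℂ) g)
    (hext' : ∀ g : G, (χh' : Γ → ℂ) g = (χ' : G → ℂ) g) :
    classInner (fun c : C => (χh : Γ → ℂ) (c * t)) (fun c : C => (χh' : Γ → ℂ) (c * t)) = 0 := by
  classical
  letI : Fintype (C.subgroupOf G) := Fintype.ofFinite _
  have hS := setup_gen (C := C) hnorm hcop hC ht
  obtain ⟨n, ρh, hρh, hχh⟩ := χh.2
  obtain ⟨n', ρh', hρh', hχh'⟩ := χh'.2
  have h1 : ∀ g : G, ρh.character g = (χ : G → ℂ) g := fun g => by rw [hχh]; exact hext g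
  have h2 : ∀ g : G, ρh'.character g = (χ' : G → ℂ) g := fun g => by rw [hχh']; exact hext' g
  have hne' : (resRep G ρh).character ≠ (resRep G ρh').character := by
    have e1 : (resRep G ρh).character = (χ : G → ℂ) := funext h1
    have e2 : (resRep G ρh').character = (χ' : G → ℂ) := funext h2
    rw [e1, e2]
    exact fun h => hne (Subtype.ext h)
  have h0 := classInner_tf_eq_zero (C := C.subgroupOf G) (resRep_irr ρh χ h1) (resRep_irr ρh' χ' h2) hne' hS
    (isTwist_res hnorm ht ρh) (isTwist_res hnorm ht ρh') (rep_pow_card ht ρh')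
  have h3 := classInner_comp_mulEquiv (eC hCG) (tf (resRep G ρh) (C.subgroupOf G) (ρh t))
    (tf (resRep G ρh') (C.subgroupOf G) (ρh' t))
  rw [h0] at h3
  rw [← h3]
  congr 1
  · funext c
    rw [← hχh]
    have := tf_res_pow ρh t 1 (eC hCG c)
    rw [pow_one, pow_one] at this
    exact this.symm
  · funext c
    rw [← hχh']
    have := tf_res_pow ρh' t 1 (eC hCG c)
    rw [pow_one, pow_one] at this
    exact this.symm

/-- Invariance under a generator. -/
theorem inv_iff_gen (hnorm : ∀ s ∈ S, ∀ g ∈ G, s * g * s⁻¹ ∈ G) {t : Γ}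
    (ht : Subgroup.zpowers t = S) (χ : G → ℂ) :
    (∀ s ∈ S, ∀ g g' : G, (g' : Γ) = s * g * s⁻¹ → χ g' = χ g) ↔ χ ∘ gen hnorm ht = χ := by
  rw [inv_iff]
  constructor
  · intro h
    exact h _
  · intro h s
    have hs : (s : Γ) ∈ Subgroup.zpowers t := by rw [ht]; exact s.2
    obtain ⟨l, hl⟩ := pow_of_zpowers hs
    have h1 : s = (⟨t, tmem ht⟩ : S) ^ l := Subtype.ext hl.symm
    rw [h1, map_pow]
    have h2 : ∀ k : ℕ, χ ∘ ((gen hnorm ht) ^ k : MulAut G) = χ := by
      intro k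
      induction k with
      | zero => rfl
      | succ k ih =>
        funext g
        rw [pow_succ]
        have h3 := congrFun ih (gen hnorm ht g)
        have h4 := congrFun h g
        simp only [Function.comp] at h3 h4 ⊢
        rw [MulAut.mul_apply, h3, h4]
    exact h2 l

/-- Counting invariant characters. -/
theorem card_inv (hnorm : ∀ s ∈ S, ∀ g ∈ G, s * g * s⁻¹ ∈ G)
    (hcop : (Nat.card G).Coprime (Nat.card S))
    (hC : C = G ⊓ Subgroup.centralizer (S : Set Γ)) (hCG : C ≤ G)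
    {t : Γ} (ht : Subgroup.zpowers t = S) :
    Nat.card {χ : IrrCharacter G //
      ∀ s ∈ S, ∀ g g' : G, (g' : Γ) = s * g * s⁻¹ → (χ : G → ℂ) g' = (χ : G → ℂ) g} =
      Nat.card (IrrCharacter C) := by
  classical
  letI : Fintype (C.subgroupOf G) := Fintype.ofFinite _
  have hS := setup_gen (C := C) hnorm hcop hC ht
  have h1 : Nat.card {χ : IrrCharacter G //
      ∀ s ∈ S, ∀ g g' : G, (g' : Γ) = s * g * s⁻¹ → (χ : G → ℂ) g' = (χ : G → ℂ) g} =
      Nat.card {χ : IrrCharacter G // (χ : G → ℂ) ∘ gen hnorm ht = χ} :=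
    Nat.card_congr (Equiv.subtypeEquivRight fun χ => inv_iff_gen hnorm ht _)
  have h2 : Nat.card (IrrCharacter C) = Nat.card (IrrCharacter (C.subgroupOf G)) := by
    refine Nat.card_congr ⟨fun γ => ⟨(γ : C → ℂ) ∘ (eC hCG).symm, isIrrCharacter_comp_mulEquiv _ γ.2⟩,
      fun γ => ⟨(γ : C.subgroupOf G → ℂ) ∘ (eC hCG), isIrrCharacter_comp_mulEquiv _ γ.2⟩, ?_, ?_⟩
    · intro γ
      apply Subtype.ext
      funext c
      simp
    · intro γ
      apply Subtype.ext
      funext c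
      simp
  rw [h1, h2, ← Cfsg.Agent.Lib.Char.BrauerPerm.card_fixed_classes_eq_card_fixed_irr (gen hnorm ht),
    ← card_orbits_tw (gen hnorm ht), ← hS.card_conjClasses, card_irr_eq_card_conjClasses]

/-- Existence of the canonical extension. -/
theorem exists_canon (hnorm : ∀ s ∈ S, ∀ g ∈ G, s * g * s⁻¹ ∈ G)
    (hcop : (Nat.card G).Coprime (Nat.card S)) (htop : G ⊔ S = ⊤) (χ : IrrCharacter G)
    (hinv : ∀ s ∈ S, ∀ g g' : G, (g' : Γ) = s * g * s⁻¹ → (χ : G → ℂ) g' = (χ : G → ℂ) g) :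
    ∃ χh : IrrCharacter Γ, (∀ g : G, (χh : Γ → ℂ) g = (χ : G → ℂ) g) ∧
      (detOrder (χh : Γ → ℂ)).Coprime (Nat.card S) := by
  classical
  have hn := normal_of_sup hnorm htop
  have hidx := index_eq hn hcop htop
  have hcf : IsClassFunction G (χ : G → ℂ) := isClassFunction_of_isIrrCharacter χ.2
  obtain ⟨d, hd⟩ := exists_deg_of_isCharacter (isCharacter_of_isIrrCharacter χ.2)
  have hdvd : d ∣ Nat.card G := by
    obtain ⟨n, ρ, hρ, hχ⟩ := χ.2
    haveI : ρ.IsIrreducible := hρ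
    have h1 := Cfsg.Agent.Lib.Char.Central.finrank_dvd_card (ρ := ρ)
    have h2 : ((finrank ℂ (Fin n → ℂ) : ℕ) : ℂ) = (d : ℂ) := by
      rw [← hd, ← hχ]
      simp [Representation.character]
    have h3 : finrank ℂ (Fin n → ℂ) = d := by exact_mod_cast h2
    rwa [h3] at h1
  have hcop1 : (Nat.card S).Coprime (detOrder (χ : G → ℂ)) :=
    hcop.symm.coprime_dvd_right (detOrder_dvd_card (isCharacter_of_isIrrCharacter χ.2))
  have hcopχ : Nat.Coprime G.index (detOrder (χ : G → ℂ) * d) := by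
    rw [hidx]
    exact Nat.Coprime.mul_right hcop1 (hcop.symm.coprime_dvd_right hdvd)
  haveI := hn
  obtain ⟨χ₀, ⟨h0, h1, h2⟩, -⟩ := Cfsg.Agent.S0867.result G (χ : G → ℂ) χ.2
    (fun x n => inv_of_sup hn htop hcf hinv x n) d hd hcopχ
  exact ⟨⟨χ₀, h0⟩, h1, by rw [h2]; exact hcop1.symm⟩

/-- Uniqueness of a value pair. -/
theorem pair_unique {β β' : IrrCharacter C} {ε ε' : ℤ} (hε : ε = 1 ∨ ε = -1)
    (hε' : ε' = 1 ∨ ε' = -1) (h : ∀ c : C, (ε : ℂ) * (β : C → ℂ) c = (ε' : ℂ) * (β' : C → ℂ) c) :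
    β = β' ∧ ε = ε' := by
  have hne : (ε' : ℂ) ≠ 0 := by
    rcases hε' with h' | h' <;> rw [h'] <;> simp
  have hne₁ : (ε : ℂ) ≠ 0 := by
    rcases hε with h' | h' <;> rw [h'] <;> simp
  have hββ : β = β' := by
    by_contra hcon
    have h0 := classInner_eq_zero_of_isIrr_of_ne β.2 β'.2 (fun h => hcon (Subtype.ext h))
    have h1 : (β' : C → ℂ) = ((ε : ℂ) * (ε' : ℂ)⁻¹) • (β : C → ℂ) := by
      funext c
      have := h c
      simp only [Pi.smul_apply, smul_eq_mul]
      field_simp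
      rw [mul_comm, ← this, mul_comm]
    rw [h1, classInner_smul_right, classInner_self_of_isIrr β.2, mul_one] at h0
    exact (mul_ne_zero ((map_ne_zero _).mpr hne₁) ((map_ne_zero _).mpr (inv_ne_zero hne))) (by
      rw [map_mul] at h0
      exact h0)
  refine ⟨hββ, ?_⟩
  subst hββ
  have h1 := h 1
  have h2 := irr_one_ne_zero β.2
  have h3 := mul_right_cancel₀ h2 h1
  exact_mod_cast h3

end Data

end Cfsg.Agent.Lib.Glauberman.CyclicMain
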